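import Mathlib
import Cfsg.Agent.SmallPerm.DegreeSix

/-!
Subgroups of `GL(4,2)` of order divisible by seven but not by five, without solvable normal subgroups.
-/

set_option autoImplicit false

namespace CfsgLib.GL4F2

open Subgroup

/-- No nontrivial solvable normal subgroup. -/
def HasNoSolvableNormal (H : Type*) [Group H] : Prop :=
  ∀ N : Subgroup H, N.Normal → Group.IsSolvable ↥N → N = ⊥

theorem HasNoSolvableNormal.eq_bot_of_isSolvable {H : Type*} [Group H] (h : HasNoSolvableNormal H)
    (hs : Group.IsSolvable H) : (⊤ : Subgroup H) = ⊥ :=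
  haveI := hs
  h ⊤ inferInstance inferInstance

theorem HasNoSolvableNormal.of_equiv {H K : Type*} [Group H] [Group K] (e : H ≃* K)
    (h : HasNoSolvableNormal H) : HasNoSolvableNormal K := by
  intro N hN hs
  haveI := hs
  have h1 := h (N.comap e.toMonoidHom) (Subgroup.Normal.comap hN _)
    (Group.isSolvable_of_isSolvable_injective (f :=
      ((e.toMonoidHom.comp (N.comap e.toMonoidHom).subtype).codRestrict N fun x => x.2))
      (fun a b hab => Subtype.ext (e.injective (congrArg Subtype.val hab))))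
  refine le_bot_iff.mp fun x hx => ?_
  have hmem : e.symm x ∈ N.comap e.toMonoidHom := by
    show e (e.symm x) ∈ N
    rwa [e.apply_symm_apply]
  rw [h1, Subgroup.mem_bot] at hmem
  rw [Subgroup.mem_bot, ← e.apply_symm_apply x, hmem, map_one]

/-- A group of order 7·k, k < 8, has a normal Sylow 7-subgroup, so a group without solvable normal subgroups
whose order divides 168 and is divisible by 7 has order 168. -/
theorem card_eq_168 {H : Type*} [Group H] [Finite H] (h : HasNoSolvableNormal H)
    (hd : Nat.card H ∣ 168) (h7 : 7 ∣ Nat.card H) : Nat.card H = 168 := by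
  haveI : Fact (Nat.Prime 7) := ⟨by norm_num⟩
  obtain ⟨k, hk⟩ := h7
  have hk24 : k ∣ 24 := Nat.dvd_of_mul_dvd_mul_left (by norm_num : 0 < 7) (by rw [← hk]; exact hd)
  have hne : Nat.card H ≠ 1 := by rw [hk]; omega
  have hns : ¬ Group.IsSolvable H := fun hs => hne (by
    have h1 := h.eq_bot_of_isSolvable hs
    rw [← Subgroup.card_top, h1, Subgroup.card_bot])
  have hcop : ¬ 7 ∣ k := fun hc => by
    have : 7 ∣ 24 := hc.trans hk24
    norm_num at this
  obtain ⟨P⟩ : Nonempty (Sylow 7 H) := inferInstance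
  have hP : Nat.card P = 7 := by
    rw [P.card_eq_multiplicity, hk, Nat.factorization_mul (a := 7) (b := k) (by norm_num) (fun h0 => hcop (by rw [h0]; exact dvd_zero 7)),
      Finsupp.add_apply, Nat.Prime.factorization_self (by norm_num),
      Nat.factorization_eq_zero_of_not_dvd hcop]
    norm_num
  have hdvd : Nat.card (Sylow 7 H) ∣ k := by
    have h1 := P.card_dvd_index
    have h2 := Subgroup.index_mul_card (P : Subgroup H)
    rw [hP, hk] at h2
    have : (P : Subgroup H).index = k := by omega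
    rwa [this] at h1
  have hmod : Nat.card (Sylow 7 H) % 7 = 1 := by
    have := card_sylow_modEq_one 7 H
    exact this
  by_cases hone : Nat.card (Sylow 7 H) = 1
  · exfalso
    haveI : Subsingleton (Sylow 7 H) := (Nat.card_eq_one_iff_unique.mp hone).1
    have hPn : (P : Subgroup H).Normal := P.normal_of_subsingleton
    have := h (P : Subgroup H) hPn (by
      haveI := P.isPGroup'.isNilpotent
      infer_instance)
    rw [this, Subgroup.card_bot] at hP
    exact absurd hP (by norm_num)
  have h8 : 8 ≤ Nat.card (Sylow 7 H) := by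
    have := Nat.card_pos (α := Sylow 7 H)
    omega
  have hk0 : 0 < k := Nat.pos_of_ne_zero fun h0 => hcop (h0 ▸ dvd_zero 7)
  have hkle := Nat.le_of_dvd (by norm_num) hk24
  have hnle := Nat.le_of_dvd hk0 hdvd
  have hk' : k = 8 ∨ k = 24 := by
    generalize Nat.card (Sylow 7 H) = n at hdvd hmod h8 hnle
    interval_cases k <;> first | omega | (interval_cases n <;> omega)
  rcases hk' with rfl | rfl
  · exact absurd (CfsgLib.SmallPerm.isSolvable_of_two_primes H 2 7 3 1 Nat.prime_two (by norm_num)
      (by rw [hk]; norm_num)) hns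
  · rw [hk]

abbrev V4 := Fin 4 → ZMod 2

/-- If a hom from `H` to a group of order 168 has kernel of exponent two, it is an isomorphism. -/
theorem equiv_of_ker_exponent_two {H K : Type*} [Group H] [Finite H] [Group K] [Finite K]
    (h : HasNoSolvableNormal H) (f : H →* K) (hK : Nat.card K = 168)
    (hker : ∀ x ∈ f.ker, x * x = 1) (h7 : 7 ∣ Nat.card H) : Nonempty (H ≃* K) := by
  haveI : Fact (Nat.Prime 2) := ⟨Nat.prime_two⟩
  have hb : f.ker = ⊥ := h f.ker inferInstance (by
    have hp : IsPGroup 2 ↥f.ker := fun x => ⟨1, Subtype.ext (by rw [pow_one]; simpa [pow_two] using hker x x.2)⟩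
    haveI := hp.isNilpotent
    infer_instance)
  have hinj := (MonoidHom.ker_eq_bot_iff f).mp hb
  have hd : Nat.card H ∣ 168 := hK ▸ Subgroup.card_dvd_of_injective f hinj
  have := card_eq_168 h hd h7
  exact ⟨MulEquiv.ofBijective f ((Nat.bijective_iff_injective_and_card f).mpr ⟨hinj, this.trans hK.symm⟩)⟩

theorem card_GL_three : Nat.card (GL (Fin 3) (ZMod 2)) = 168 := by
  rw [Matrix.card_GL_field]
  simp [Fin.prod_univ_three, ZMod.card]

/-- The group of automorphisms of a three dimensional space over `ZMod 2` is `GL(3,2)`. -/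
theorem linearEquiv_three {M : Type*} [AddCommGroup M] [Module (ZMod 2) M] [Module.Finite (ZMod 2) M]
    (hM : Module.finrank (ZMod 2) M = 3) :
    Nonempty ((M ≃ₗ[ZMod 2] M) ≃* GL (Fin 3) (ZMod 2)) := by
  let e : M ≃ₗ[ZMod 2] (Fin 3 → ZMod 2) := LinearEquiv.ofFinrankEq _ _ (by rw [hM, Module.finrank_fin_fun])
  let c : (M ≃ₗ[ZMod 2] M) ≃* ((Fin 3 → ZMod 2) ≃ₗ[ZMod 2] (Fin 3 → ZMod 2)) :=
    { toFun := fun f => e.symm.trans (f.trans e)
      invFun := fun f => e.trans (f.trans e.symm)
      left_inv := fun f => by ext x; simp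
      right_inv := fun f => by ext x; simp
      map_mul' := fun f g => by
        refine LinearEquiv.ext fun x => ?_
        rw [LinearEquiv.mul_apply]
        simp [LinearEquiv.trans_apply] }
  exact ⟨c.trans ((Matrix.GeneralLinearGroup.toLin : GL (Fin 3) (ZMod 2) ≃* _).trans
    (LinearMap.GeneralLinearGroup.generalLinearEquiv (ZMod 2) (Fin 3 → ZMod 2))).symm⟩

/-- A group acting on `V4` stabilizing a hyperplane, or fixing a vector. -/
theorem equiv_GL_three_of_invariant {H : Type*} [Group H] [Finite H] (h : HasNoSolvableNormal H)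
    (h7 : 7 ∣ Nat.card H) (ρ : H →* (V4 ≃ₗ[ZMod 2] V4)) (hρ : Function.Injective ρ)
    (U : Submodule (ZMod 2) V4) (hU : ∀ g, ∀ u ∈ U, ρ g u ∈ U)
    (hdim : (Module.finrank (ZMod 2) U = 1 ∧ ∀ g, ∀ u ∈ U, ρ g u = u) ∨
      (Module.finrank (ZMod 2) U = 3 ∧ ∀ g v, ρ g v - v ∈ U)) :
    Nonempty (H ≃* GL (Fin 3) (ZMod 2)) := by
  have hmapeq : ∀ g, U.map (ρ g : V4 →ₗ[ZMod 2] V4) = U := fun g => by
    refine le_antisymm ?_ fun u hu => ⟨ρ g⁻¹ u, hU g⁻¹ u hu, ?_⟩
    · rintro _ ⟨u, hu, rfl⟩; exact hU g u hu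
    · show ρ g (ρ g⁻¹ u) = u
      rw [← LinearEquiv.mul_apply, ← map_mul, mul_inv_cancel, map_one]
      rfl
  have hsq : ∀ g, (∀ u ∈ U, ρ g u = u) → (∀ v, ρ g v - v ∈ U) → g * g = 1 := by
    intro g h1 h2
    refine hρ (LinearEquiv.ext fun v => ?_)
    rw [map_mul, map_one, LinearEquiv.mul_apply]
    show ρ g (ρ g v) = v
    have h3 := h1 _ (h2 v)
    rw [map_sub] at h3
    have h4 : ρ g (ρ g v) = ρ g v - v + ρ g v := sub_eq_iff_eq_add.mp h3
    funext i
    have h5 := congrFun h4 i
    rw [Pi.add_apply, Pi.sub_apply] at h5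
    exact (show ∀ a b c : ZMod 2, c = a - b + a → c = b by decide) _ _ _ h5
  rcases hdim with ⟨hd, htriv⟩ | ⟨hd, hquot⟩
  · -- action on the quotient
    let f : H →* ((V4 ⧸ U) ≃ₗ[ZMod 2] (V4 ⧸ U)) := MonoidHom.mk'
      (fun g => Submodule.Quotient.equiv U U (ρ g) (hmapeq g)) fun a b => by
        refine LinearEquiv.ext fun x => ?_
        obtain ⟨v, rfl⟩ := Submodule.Quotient.mk_surjective U x
        rw [LinearEquiv.mul_apply]
        simp [map_mul, LinearEquiv.mul_apply]
    obtain ⟨e⟩ := linearEquiv_three (M := V4 ⧸ U) (by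
      have := Submodule.finrank_quotient_add_finrank U
      rw [hd, Module.finrank_fin_fun] at this
      omega)
    refine equiv_of_ker_exponent_two h (e.toMonoidHom.comp f) card_GL_three (fun g hg => ?_) h7
    have hg' : f g = 1 := e.injective (by rw [map_one]; exact MonoidHom.mem_ker.mp hg)
    refine hsq g (fun u hu => htriv g u hu) fun v => ?_
    have := LinearEquiv.congr_fun hg' (Submodule.Quotient.mk v)
    simp only [f, MonoidHom.mk'_apply] at this
    rw [← Submodule.Quotient.eq]
    simpa using this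
  · let f : H →* (U ≃ₗ[ZMod 2] U) := MonoidHom.mk'
      (fun g => (ρ g).ofSubmodules U U (hmapeq g)) fun a b => by
        refine LinearEquiv.ext fun x => Subtype.ext ?_
        simp [map_mul, LinearEquiv.mul_apply, LinearEquiv.ofSubmodules_apply]
    obtain ⟨e⟩ := linearEquiv_three (M := U) hd
    refine equiv_of_ker_exponent_two h (e.toMonoidHom.comp f) card_GL_three (fun g hg => ?_) h7
    have hg' : f g = 1 := e.injective (by rw [map_one]; exact MonoidHom.mem_ker.mp hg)
    refine hsq g (fun u hu => ?_) (hquot g)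
    have := congrArg Subtype.val (LinearEquiv.congr_fun hg' ⟨u, hu⟩)
    simpa [f, LinearEquiv.ofSubmodules_apply] using this

end CfsgLib.GL4F2
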