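import Mathlib
import Cfsg.Agent.GL4F2.OrderSeven

/-!
A group of linear maps of `(ZMod 2)^4` of order divisible by 7 and not by 5 fixes a vector or a hyperplane.
-/

set_option autoImplicit false

namespace CfsgLib.GL4F2

theorem zmod2_cases (c : ZMod 2) : c = 0 ∨ c = 1 := by
  revert c; decide

theorem seven_nsmul (a : ZMod 2) : (7 : ℕ) • a = a := by
  revert a; decide

theorem eq_of_add_eq_zero (a b : ZMod 2) (h : a + b = 0) : a = b := by
  revert a b; decide

theorem exists_invariant {H : Type*} [Group H] [Finite H] (ρ : H →* (V4 ≃ₗ[ZMod 2] V4))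
    (hρ : Function.Injective ρ) (h7 : 7 ∣ Nat.card H) (h5 : ¬ 5 ∣ Nat.card H) :
    ∃ U : Submodule (ZMod 2) V4, (∀ g, ∀ u ∈ U, ρ g u ∈ U) ∧
      ((Module.finrank (ZMod 2) U = 1 ∧ ∀ g, ∀ u ∈ U, ρ g u = u) ∨
        (Module.finrank (ZMod 2) U = 3 ∧ ∀ g v, ρ g v - v ∈ U)) := by
  classical
  haveI : Fact (Nat.Prime 7) := ⟨by norm_num⟩
  haveI : Fact (Nat.Prime 2) := ⟨Nat.prime_two⟩
  letI act : MulAction H V4 := MulAction.compHom V4 ρ
  have smul_def : ∀ (h : H) (x : V4), h • x = ρ h x := fun _ _ => rfl
  obtain ⟨g, hg⟩ := exists_prime_orderOf_dvd_card' (G := H) 7 h7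
  set T : V4 →ₗ[ZMod 2] V4 := (ρ g : V4 →ₗ[ZMod 2] V4) with hT
  set D : V4 →ₗ[ZMod 2] V4 := T - LinearMap.id with hD
  set F := LinearMap.ker D with hF
  set W := LinearMap.range D with hW
  have hmemF : ∀ x, x ∈ F ↔ g • x = x := fun x => by
    rw [hF, LinearMap.mem_ker, hD, LinearMap.sub_apply, sub_eq_zero, smul_def]; rfl
  -- orbits under `g`
  let Z := Subgroup.zpowers g
  have hZ : Nat.card Z = 7 := by rw [Nat.card_zpowers, hg]
  have hZp : IsPGroup 7 Z := IsPGroup.of_card (n := 1) (by rw [hZ, pow_one])
  have hmemfix : ∀ x : V4, x ∈ MulAction.fixedPoints Z V4 ↔ g • x = x := by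
    intro x
    constructor
    · intro h; exact h ⟨g, Subgroup.mem_zpowers g⟩
    · intro h z
      obtain ⟨i, hi⟩ := Subgroup.mem_zpowers_iff.mp z.2
      have hs : g ∈ MulAction.stabilizer H x := h
      have := Subgroup.zpow_mem _ hs i
      rw [hi] at this
      exact this
  have hF2 : Module.finrank (ZMod 2) F = 1 := by
    have h1 := hZp.card_modEq_card_fixedPoints V4
    have hV : Nat.card V4 = 16 := by simp [Nat.card_eq_fintype_card, ZMod.card]
    have hfix : Nat.card (MulAction.fixedPoints Z V4) = 2 ^ Module.finrank (ZMod 2) F := by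
      have := Module.natCard_eq_pow_finrank (K := ZMod 2) (V := F)
      rw [Nat.card_zmod] at this
      rw [← this]
      exact Nat.card_congr (Equiv.subtypeEquivRight fun x => (hmemfix x).trans (hmemF x).symm)
    rw [hV, hfix] at h1
    have hle : Module.finrank (ZMod 2) F ≤ 4 := by
      simpa using Submodule.finrank_le F
    unfold Nat.ModEq at h1
    interval_cases hd : Module.finrank (ZMod 2) F <;> norm_num at h1
    · rfl
    · exfalso
      have htop : F = ⊤ := Submodule.eq_top_of_finrank_eq (by rw [hd, Module.finrank_fin_fun])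
      have h1' : g = 1 := hρ (by
        rw [map_one]
        exact LinearEquiv.ext fun x => (hmemF x).mp (htop ▸ Submodule.mem_top))
      rw [h1', orderOf_one] at hg
      exact absurd hg (by norm_num)
  have hW3 : Module.finrank (ZMod 2) W = 3 := by
    have := LinearMap.finrank_range_add_finrank_ker D
    rw [← hW, ← hF, hF2, Module.finrank_fin_fun] at this
    omega
  obtain ⟨v, hvF, hv0⟩ := Submodule.exists_mem_ne_zero_of_ne_bot (p := F) (fun h => by
    rw [h, finrank_bot] at hF2; exact absurd hF2 (by norm_num))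
  have hgv : g • v = v := (hmemF v).mp hvF
  have hFv : ∀ x ∈ F, x = 0 ∨ x = v := by
    intro x hx
    have hspan : Submodule.span (ZMod 2) {v} = F := Submodule.eq_of_le_of_finrank_eq
      ((Submodule.span_singleton_le_iff_mem v F).mpr hvF) (by rw [finrank_span_singleton hv0, hF2])
    rw [← hspan, Submodule.mem_span_singleton] at hx
    obtain ⟨c, rfl⟩ := hx
    rcases zmod2_cases c with rfl | rfl <;> simp
  have hvW : v ∉ W := by
    rintro ⟨u, hu⟩
    apply hv0
    have hu' : g • u = u + v := by
      rw [hD, LinearMap.sub_apply, sub_eq_iff_eq_add] at hu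
      rw [smul_def]
      exact hu.trans (add_comm v u)
    have hiter : ∀ k : ℕ, (g ^ k) • u = u + k • v := by
      intro k
      induction k with
      | zero => simp
      | succ k ih =>
        rw [pow_succ', mul_smul, ih, smul_def, map_add, map_nsmul, ← smul_def, hu', ← smul_def, hgv,
          succ_nsmul, add_assoc, add_comm v]
    have h := hiter 7
    rw [← hg, pow_orderOf_eq_one, one_smul, hg, left_eq_add] at h
    have h2 : (7 : ℕ) • v = v := by
      funext i
      rw [Pi.smul_apply]
      exact seven_nsmul _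
    rwa [h2] at h
  have hdec : ∀ x : V4, x ∈ W ∨ x - v ∈ W := by
    intro x
    have hdisj : Disjoint W (Submodule.span (ZMod 2) {v}) :=
      (Submodule.disjoint_span_singleton' hv0).mpr hvW
    have htop : W ⊔ Submodule.span (ZMod 2) {v} = ⊤ := by
      apply Submodule.eq_top_of_finrank_eq
      have := Submodule.finrank_sup_add_finrank_inf_eq W (Submodule.span (ZMod 2) {v})
      rw [hdisj.eq_bot, finrank_bot, finrank_span_singleton hv0, hW3] at this
      rw [Module.finrank_fin_fun]
      omega
    obtain ⟨w, hw, y, hy, hxy⟩ := Submodule.mem_sup.mp (htop ▸ Submodule.mem_top : x ∈ W ⊔ _)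
    obtain ⟨c, rfl⟩ := Submodule.mem_span_singleton.mp hy
    rcases zmod2_cases c with rfl | rfl
    · left; rw [← hxy]; simpa using hw
    · right; rw [← hxy]; simpa using hw
  by_cases hfixv : ∀ h : H, h • v = v
  · refine ⟨Submodule.span (ZMod 2) {v}, ?_, Or.inl ⟨finrank_span_singleton hv0, ?_⟩⟩
    all_goals
      intro h u hu
      obtain ⟨c, rfl⟩ := Submodule.mem_span_singleton.mp hu
    · rw [map_smul, ← smul_def, hfixv]; exact hu
    · rw [map_smul, ← smul_def, hfixv]
  push Not at hfixv
  obtain ⟨h0, hh0⟩ := hfixv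
  set O := MulAction.orbit H v with hO
  have hOinv : ∀ (h : H) (x : V4), x ∈ O → h • x ∈ O := fun h x hx => by
    obtain ⟨k, rfl⟩ := hx
    exact ⟨h * k, by simp [mul_smul]⟩
  have hOinv' : ∀ (h : H) (x : V4), h • x ∈ O → x ∈ O := fun h x hx => by
    have := hOinv h⁻¹ _ hx
    rwa [inv_smul_smul] at this
  have hgW : ∀ w ∈ W, g • w ∈ W := by
    rintro _ ⟨u, rfl⟩
    refine ⟨g • u, ?_⟩
    simp [hD, hT, smul_def, map_sub]
  -- every nonzero coset element generates its coset
  have hcover : ∀ x : V4, x ≠ 0 → x ∈ W → x ∈ O → ∀ w ∈ W, w ≠ 0 → w ∈ O := by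
    intro x hx0 hxW hxO w hwW hw0
    let X : Set V4 := {w | w ∈ W ∧ w ≠ 0}
    have hXcard : X.ncard ≤ 7 := by
      have : X = (W : Set V4) \ {0} := by ext; simp [X]
      rw [this, Set.ncard_sdiff_singleton_of_mem (show (0 : V4) ∈ (W : Set V4) from W.zero_mem),
        ← Nat.card_coe_set_eq]
      have h := Module.natCard_eq_pow_finrank (K := ZMod 2) (V := W)
      rw [Nat.card_zmod, hW3] at h
      have h' : Nat.card ↥(W : Set V4) = 8 := h
      omega
    have hsub : MulAction.orbit Z x ⊆ X := by
      rintro _ ⟨⟨z, hz⟩, rfl⟩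
      obtain ⟨i, rfl⟩ := (isOfFinOrder_of_finite g).mem_powers_iff_mem_zpowers.mpr hz
      have : ∀ i : ℕ, (g ^ i) • x ∈ W := by
        intro i
        induction i with
        | zero => simpa using hxW
        | succ i ih => rw [pow_succ', mul_smul]; exact hgW _ ih
      refine ⟨this i, fun he => hx0 ?_⟩
      have he' : (g ^ i) • x = (g ^ i) • (0 : V4) := by
        rw [smul_def (g ^ i) 0, map_zero]; exact he
      exact MulAction.injective (g ^ i) he' 
    have h7orb : Nat.card (MulAction.orbit Z x) = 7 := by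
      have hdvd : Nat.card (MulAction.orbit Z x) ∣ 7 := by
        rw [← Nat.card_congr (MulAction.orbitEquivQuotientStabilizer _ x).symm, ← hZ]
        exact Subgroup.index_dvd_card _
      rcases (Nat.dvd_prime (by norm_num)).mp hdvd with h | h
      · exfalso
        obtain ⟨a, ha⟩ := Nat.card_eq_one_iff_exists.mp h
        have e1 := ha ⟨x, MulAction.mem_orbit_self x⟩
        have e2 := ha ⟨g • x, ⟨⟨g, Subgroup.mem_zpowers g⟩, rfl⟩⟩
        have hfx : x ∈ F := (hmemF x).mpr (congrArg Subtype.val (e2.trans e1.symm))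
        rcases hFv x hfx with h' | h'
        · exact hx0 h'
        · exact hvW (h' ▸ hxW)
      · exact h
    have heq : MulAction.orbit Z x = X := Set.eq_of_subset_of_ncard_le hsub
      (by rw [← Nat.card_coe_set_eq (MulAction.orbit Z x), h7orb]; exact hXcard) (Set.toFinite _)
    obtain ⟨⟨z, hz⟩, hzx⟩ : w ∈ MulAction.orbit Z x := heq ▸ ⟨hwW, hw0⟩
    rw [← hzx]
    exact hOinv z x hxO
  -- the same for the other coset, by translating with the fixed vector
  have hcover2 : ∀ x : V4, x - v ∈ W → x ≠ v → x ∈ O → ∀ y, y - v ∈ W → y ≠ v → y ∈ O := by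
    intro x hxW hxv hxO y hyW hyv
    let X : Set V4 := {w | w ∈ W ∧ w ≠ 0}
    have hXcard : X.ncard = 7 := by
      have : X = (W : Set V4) \ {0} := by ext; simp [X]
      rw [this, Set.ncard_sdiff_singleton_of_mem (show (0 : V4) ∈ (W : Set V4) from W.zero_mem),
        ← Nat.card_coe_set_eq]
      have h := Module.natCard_eq_pow_finrank (K := ZMod 2) (V := W)
      rw [Nat.card_zmod, hW3] at h
      have h' : Nat.card ↥(W : Set V4) = 8 := h
      omega
    have hsub : (fun z => z - v) '' MulAction.orbit Z x ⊆ X := by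
      rintro _ ⟨_, ⟨⟨z, hz⟩, rfl⟩, rfl⟩
      obtain ⟨i, rfl⟩ := (isOfFinOrder_of_finite g).mem_powers_iff_mem_zpowers.mpr hz
      have hiv : (g ^ i) • v = v := by
        induction i with
        | zero => simp
        | succ i ih =>
          rw [pow_succ', mul_smul, ih (Subgroup.npow_mem_zpowers g i), hgv]
      have : ∀ i : ℕ, (g ^ i) • (x - v) ∈ W := by
        intro i
        induction i with
        | zero => simpa using hxW
        | succ i ih => rw [pow_succ', mul_smul]; exact hgW _ ih
      have heq : (g ^ i) • x - v = (g ^ i) • (x - v) := by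
        conv_lhs => rw [← hiv]
        simp [smul_def, map_sub]
      refine ⟨by show (g ^ i) • x - v ∈ W; rw [heq]; exact this i, fun he => hxv ?_⟩
      have he0 : (g ^ i) • x = (g ^ i) • v := by rw [hiv]; exact sub_eq_zero.mp he
      exact MulAction.injective (g ^ i) he0
    have h7orb : Nat.card (MulAction.orbit Z x) = 7 := by
      have hdvd : Nat.card (MulAction.orbit Z x) ∣ 7 := by
        rw [← Nat.card_congr (MulAction.orbitEquivQuotientStabilizer _ x).symm, ← hZ]
        exact Subgroup.index_dvd_card _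
      rcases (Nat.dvd_prime (by norm_num)).mp hdvd with h | h
      · exfalso
        obtain ⟨a, ha⟩ := Nat.card_eq_one_iff_exists.mp h
        have e1 := ha ⟨x, MulAction.mem_orbit_self x⟩
        have e2 := ha ⟨g • x, ⟨⟨g, Subgroup.mem_zpowers g⟩, rfl⟩⟩
        have hfx : x ∈ F := (hmemF x).mpr (congrArg Subtype.val (e2.trans e1.symm))
        rcases hFv x hfx with h' | h'
        · apply hvW; rw [h', zero_sub] at hxW; simpa using hxW
        · exact hxv h'
      · exact h
    have heq : (fun z => z - v) '' MulAction.orbit Z x = X := Set.eq_of_subset_of_ncard_le hsub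
      (by rw [Set.ncard_image_of_injective _ (sub_left_injective),
        ← Nat.card_coe_set_eq (MulAction.orbit Z x), h7orb, hXcard]) (Set.toFinite _)
    obtain ⟨_, ⟨⟨z, hz⟩, rfl⟩, hzx⟩ : y - v ∈ (fun z => z - v) '' MulAction.orbit Z x :=
      heq ▸ ⟨hyW, sub_ne_zero.mpr hyv⟩
    rw [← sub_left_injective hzx]
    exact hOinv z x hxO
  -- not both
  have hO0 : (0 : V4) ∉ O := by
    rintro ⟨k, hk⟩
    exact hv0 ((ρ k).injective (hk.trans (map_zero (ρ k)).symm))
  have hnotboth : ¬ ((∀ w ∈ W, w ≠ 0 → w ∈ O) ∧ (∀ y, y - v ∈ W → y ≠ v → y ∈ O)) := by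
    rintro ⟨hA, hB⟩
    apply h5
    have hOeq : O = {x | x ≠ 0} := by
      ext x
      constructor
      · intro hx h0; exact hO0 (h0 ▸ hx)
      · intro hx
        rcases hdec x with h | h
        · exact hA x h hx
        · by_cases hxv : x = v
          · rw [hxv]; exact MulAction.mem_orbit_self v
          · exact hB x h hxv
    have h15 : Nat.card O = 15 := by
      have hc : ({x | x ≠ 0} : Set V4) = Set.univ \ {0} := by ext; simp
      rw [hOeq, hc, Nat.card_coe_set_eq, Set.ncard_sdiff_singleton_of_mem (Set.mem_univ _), Set.ncard_univ]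
      simp [Nat.card_eq_fintype_card, ZMod.card]
    have hd : Nat.card O ∣ Nat.card H := by
      rw [hO, ← Nat.card_congr (MulAction.orbitEquivQuotientStabilizer H v).symm]
      exact Subgroup.index_dvd_card _
    exact (by norm_num : 5 ∣ 15).trans (h15 ▸ hd)
  have hWinv : ∀ (h : H), ∀ w ∈ W, h • w ∈ W := by
    intro h w hw
    by_cases hw0 : w = 0
    · rw [hw0, smul_def, map_zero]; exact W.zero_mem
    have hwne : h • w ≠ 0 := fun he => hw0 ((ρ h).injective (he.trans (map_zero (ρ h)).symm))
    by_cases hA : ∀ w ∈ W, w ≠ 0 → w ∈ O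
    · -- the coset `v + W` without `v` is invariant
      have hB : ∀ y, y - v ∈ W → y ≠ v → y ∉ O := fun y hy hyv hyO =>
        hnotboth ⟨hA, hcover2 y hy hyv hyO⟩
      have hX2 : ∀ y, y - v ∈ W → y ≠ v → h • y - v ∈ W := by
        intro y hy hyv
        rcases hdec (h • y) with h1 | h1
        · exfalso
          refine hB y hy hyv (hOinv' h y (hA _ h1 fun he => ?_))
          have : y = 0 := (ρ h).injective (he.trans (map_zero (ρ h)).symm)
          rw [this, zero_sub] at hy
          exact hvW (by simpa using hy)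
        · exact h1
      obtain ⟨a, haW, ha0, haw⟩ : ∃ a ∈ W, a ≠ 0 ∧ a ≠ w := by
        by_contra hno
        push Not at hno
        have hsub : (W : Set V4) ⊆ {0, w} := fun a ha => by
          by_cases h0 : a = 0
          · exact Or.inl h0
          · exact Or.inr (hno a ha h0)
        have h1 := Set.ncard_le_ncard hsub (Set.toFinite _)
        have h2 : ({0, w} : Set V4).ncard ≤ 2 := by
          have := Set.ncard_insert_le (0 : V4) {w}
          simpa using this
        rw [← Nat.card_coe_set_eq] at h1
        have h := Module.natCard_eq_pow_finrank (K := ZMod 2) (V := W)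
        rw [Nat.card_zmod, hW3] at h
        have h' : Nat.card ↥(W : Set V4) = 8 := h
        omega
      have h1 := hX2 (v + a) (by simpa using haW) (by simpa using ha0)
      have h2 := hX2 (v + (a + w)) (by simpa using W.add_mem haW hw) (by
        intro he
        rw [add_eq_left] at he
        apply haw
        funext i
        have := congrFun he i
        rw [Pi.add_apply] at this
        exact eq_of_add_eq_zero _ _ this)
      have h3 := W.sub_mem h2 h1
      have he : (h • (v + (a + w)) - v) - (h • (v + a) - v) = h • w := by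
        simp only [smul_def, map_add]; abel
      rwa [he] at h3
    · rcases hdec (h • w) with h1 | h1
      · exact h1
      · exfalso
        have hwO : w ∉ O := fun hO' => hA (hcover w hw0 hw hO')
        have hhwO : h • w ∉ O := fun hO' => hwO (hOinv' h w hO')
        have hxO : h0 • v ∈ O := ⟨h0, rfl⟩
        rcases hdec (h0 • v) with h2 | h2
        · exact hA (hcover _ (fun he => hO0 (he ▸ hxO)) h2 hxO)
        · by_cases hwv : h • w = v
          · exact hhwO (hwv ▸ MulAction.mem_orbit_self v)
          · exact hhwO (hcover2 _ h2 hh0 hxO _ h1 hwv)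
  refine ⟨W, fun h w hw => hWinv h w hw, Or.inr ⟨hW3, fun h x => ?_⟩⟩
  have hnot : ∀ y, y ∉ W → h • y ∉ W := fun y hy he => hy (by
    have := hWinv h⁻¹ _ he
    rwa [inv_smul_smul] at this)
  by_cases hx : x ∈ W
  · exact W.sub_mem (hWinv h x hx) hx
  · have h1 := (hdec x).resolve_left hx
    have h2 := (hdec (h • x)).resolve_left (hnot x hx)
    have := W.sub_mem h2 h1
    simpa [smul_def] using this

end CfsgLib.GL4F2
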