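import Mathlib
import Cfsg.Prelude.Def_Solvable
import Cfsg.Agent.Eq.Def_Solvable
import Cfsg.Agent.GL4F2.Alt8
import Cfsg.Agent.GL4F2.PermSubgroups
import Cfsg.Agent.GL4F2.InvariantSubspace

/-!
The subgroups of `GL(4,2) ≅ Alt 8` without solvable normal subgroups.
-/

set_option autoImplicit false

namespace CfsgLib.GL4F2

open Subgroup
open scoped commutatorElement

theorem hasNoSolvableNormal_of_cores {H : Type*} [Group H] [Finite H]
    (h2 : Cfsg.pCore 2 H = ⊥) (hodd : Cfsg.pPrimeCore 2 H = ⊥) : HasNoSolvableNormal H := by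
  haveI : Fact (Nat.Prime 2) := ⟨Nat.prime_two⟩
  intro N hN hs
  by_contra hne
  obtain ⟨n, hn⟩ := (Group.isSolvable_def ↥N).mp hs
  classical
  let k := Nat.find (p := fun k => derivedSeries ↥N k = ⊥) ⟨n, hn⟩
  have hk : derivedSeries ↥N k = ⊥ := Nat.find_spec (p := fun k => derivedSeries ↥N k = ⊥) ⟨n, hn⟩
  have hk0 : k ≠ 0 := by
    intro h0
    rw [h0, derivedSeries_zero] at hk
    apply hne
    rw [eq_bot_iff]
    intro x hx
    have : (⟨x, hx⟩ : ↥N) ∈ (⊥ : Subgroup ↥N) := hk ▸ Subgroup.mem_top _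
    exact Subgroup.mem_bot.mpr (congrArg Subtype.val (Subgroup.mem_bot.mp this))
  obtain ⟨j, hj⟩ := Nat.exists_eq_succ_of_ne_zero hk0
  have hM : derivedSeries ↥N j ≠ ⊥ :=
    Nat.find_min (p := fun k => derivedSeries ↥N k = ⊥) ⟨n, hn⟩ (show j < k by omega)
  have hchar : ∀ m, (derivedSeries ↥N m).Characteristic := by
    intro m
    induction m with
    | zero => exact Subgroup.topCharacteristic
    | succ m ih =>
      rw [derivedSeries_succ]
      haveI := ih
      infer_instance
  haveI := hchar j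
  haveI := hN
  set M : Subgroup H := (derivedSeries ↥N j).map N.subtype with hMdef
  haveI hMn : M.Normal := inferInstance
  have hMne : M ≠ ⊥ := fun h => hM ((Subgroup.map_eq_bot_iff_of_injective _ N.subtype_injective).mp h)
  have hMc : ∀ x ∈ M, ∀ y ∈ M, x * y = y * x := by
    rintro _ ⟨x, hx, rfl⟩ _ ⟨y, hy, rfl⟩
    have h1 : ⁅x, y⁆ ∈ (⊥ : Subgroup ↥N) := by
      rw [← hk, hj, derivedSeries_succ]
      exact Subgroup.commutator_mem_commutator hx hy
    rw [Subgroup.mem_bot, commutatorElement_eq_one_iff_mul_comm] at h1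
    rw [← map_mul, h1, map_mul]
  by_cases h : 2 ∣ Nat.card ↥M
  · let T : Subgroup H :=
      { carrier := {x | x ∈ M ∧ x * x = 1}
        one_mem' := ⟨one_mem _, one_mul 1⟩
        mul_mem' := fun {x y} hx hy => ⟨mul_mem hx.1 hy.1, by
          rw [mul_assoc x y, ← mul_assoc y x y, hMc y hy.1 x hx.1, mul_assoc x y y, hy.2, mul_one, hx.2]⟩
        inv_mem' := fun {x} hx => ⟨inv_mem hx.1, by rw [← mul_inv_rev, hx.2, inv_one]⟩ }
    have hTn : T.Normal := ⟨fun x hx g => ⟨hMn.conj_mem x hx.1 g, by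
      calc g * x * g⁻¹ * (g * x * g⁻¹) = g * (x * x) * g⁻¹ := by group
        _ = 1 := by rw [hx.2, mul_one, mul_inv_cancel]⟩⟩
    have hTp : IsPGroup 2 ↥T := fun x => ⟨1, Subtype.ext (by simpa [pow_two] using x.2.2)⟩
    obtain ⟨x, hx⟩ := exists_prime_orderOf_dvd_card' (G := ↥M) 2 h
    have hxT : (x : H) ∈ T := ⟨x.2, by
      have := congrArg Subtype.val (pow_orderOf_eq_one x)
      rw [hx, pow_two] at this
      exact this⟩
    have hle : T ≤ Cfsg.pCore 2 H := le_sSup (show T ∈ {N : Subgroup H | N.Normal ∧ IsPGroup 2 N} from ⟨hTn, hTp⟩)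
    have := hle hxT
    rw [h2, Subgroup.mem_bot] at this
    rw [show x = 1 from Subtype.ext this, orderOf_one] at hx
    exact absurd hx (by norm_num)
  · refine hMne (le_bot_iff.mp (hodd ▸ le_sSup ?_))
    exact ⟨hMn, ((Nat.prime_two.coprime_iff_not_dvd).mpr h).symm⟩

theorem isSolvable_perm_of_card_le_three (α : Type*) [Fintype α] [DecidableEq α] (h : Fintype.card α ≤ 3) :
    Group.IsSolvable (Equiv.Perm α) := by
  refine CfsgLib.SmallPerm.isSolvable_of_two_primes _ 2 3 1 1 Nat.prime_two (by norm_num) ?_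
  rw [Nat.card_perm, Nat.card_eq_fintype_card]
  interval_cases Fintype.card α <;> simp [Nat.factorial]

/-- The permutation case with an orbit of size five or six. -/
theorem small_orbit {H : Type*} [Group H] [Finite H] (hss : HasNoSolvableNormal H)
    (hns : ¬ Group.IsSolvable H) (ρ : H →* Equiv.Perm (Fin 8)) (hρ : Function.Injective ρ)
    (O : Set (Fin 8)) (hO : ∀ h, ∀ x, ρ h x ∈ O ↔ x ∈ O) (h5 : 5 ≤ O.ncard) (h6 : O.ncard ≤ 6) :
    Nonempty (H ≃* ↥(alternatingGroup (Fin 5))) ∨ Nonempty (H ≃* ↥(alternatingGroup (Fin 6))) ∨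
      Nonempty (H ≃* Equiv.Perm (Fin 5)) ∨ Nonempty (H ≃* Equiv.Perm (Fin 6)) := by
  classical
  let r : H →* Equiv.Perm O :=
    { toFun := fun h => (ρ h).subtypePerm (hO h)
      map_one' := by ext x; simp
      map_mul' := fun a b => Equiv.ext fun x => Subtype.ext (DFunLike.congr_fun (map_mul ρ a b) x.1) }
  let r' : H →* Equiv.Perm {x // x ∉ O} :=
    { toFun := fun h => (ρ h).subtypePerm (fun x => not_congr (hO h x))
      map_one' := by ext x; simp
      map_mul' := fun a b => Equiv.ext fun x => Subtype.ext (DFunLike.congr_fun (map_mul ρ a b) x.1) }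
  have hc : Fintype.card {x // x ∉ O} ≤ 3 := by
    rw [Fintype.card_subtype_compl, Fintype.card_fin]
    have : Fintype.card {x // x ∈ O} = O.ncard := by rw [← Nat.card_eq_fintype_card, ← Nat.card_coe_set_eq]
    omega
  haveI := isSolvable_perm_of_card_le_three _ hc
  have hker : r.ker = ⊥ := by
    refine hss r.ker inferInstance ?_
    refine Group.isSolvable_of_isSolvable_injective (f := r'.comp r.ker.subtype) fun a b hab => ?_
    apply Subtype.ext
    apply hρ
    ext x : 1
    by_cases hx : x ∈ O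
    · have ha := congrArg (fun e : Equiv.Perm O => (e ⟨x, hx⟩ : Fin 8)) (MonoidHom.mem_ker.mp a.2)
      have hb := congrArg (fun e : Equiv.Perm O => (e ⟨x, hx⟩ : Fin 8)) (MonoidHom.mem_ker.mp b.2)
      exact ha.trans hb.symm
    · exact congrArg (fun e : Equiv.Perm {x // x ∉ O} => (e ⟨x, hx⟩ : Fin 8)) hab
  obtain ⟨emb⟩ : Nonempty (O ↪ Fin 6) := Function.Embedding.nonempty_of_card_le (by
    rw [Fintype.card_fin, ← Nat.card_eq_fintype_card, Nat.card_coe_set_eq]; exact h6)
  let f : H →* Equiv.Perm (Fin 6) := (Equiv.Perm.viaEmbeddingHom emb).comp r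
  have hf : Function.Injective f :=
    (Equiv.Perm.viaEmbeddingHom_injective emb).comp ((MonoidHom.ker_eq_bot_iff r).mp hker)
  let e := MonoidHom.ofInjective hf
  have hTns : ¬ Group.IsSolvable ↥f.range := fun hs => hns (by
    haveI := hs
    exact Group.isSolvable_of_isSolvable_injective (f := e.toMonoidHom) e.injective)
  rcases CfsgLib.SmallPerm.degree_six_insoluble f.range hTns with g | g | g | g
  · exact Or.inl (g.map e.trans)
  · exact Or.inr (Or.inl (g.map e.trans))
  · exact Or.inr (Or.inr (Or.inl (g.map e.trans)))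
  · exact Or.inr (Or.inr (Or.inr (g.map e.trans)))

/-- The subgroups of `GL(4,2)` without solvable normal subgroups. -/
theorem classify (H : Subgroup (GL (Fin 4) (ZMod 2))) (hH : H ≠ ⊥) (hss : HasNoSolvableNormal ↥H) :
    (∃ n : ℕ, 5 ≤ n ∧ n ≤ 8 ∧ Nonempty (↥H ≃* alternatingGroup (Fin n))) ∨
      Nonempty (↥H ≃* Equiv.Perm (Fin 5)) ∨ Nonempty (↥H ≃* Equiv.Perm (Fin 6)) ∨
      Nonempty (↥H ≃* GL (Fin 3) (ZMod 2)) := by
  classical
  haveI : Fact (Nat.Prime 5) := ⟨by norm_num⟩
  have hns : ¬ Group.IsSolvable ↥H := fun hs => hH (by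
    rw [← Subgroup.card_eq_one, ← Subgroup.card_top, hss.eq_bot_of_isSolvable hs, Subgroup.card_bot])
  have hdvd : Nat.card ↥H ∣ 20160 := card_GL_four ▸ Subgroup.card_subgroup_dvd_card H
  let ρ : ↥H →* Equiv.Perm (Fin 8) :=
    (alternatingGroup (Fin 8)).subtype.comp (equivAlt8.toMonoidHom.comp H.subtype)
  have hρ : Function.Injective ρ := fun a b h =>
    Subtype.ext (equivAlt8.injective (Subtype.ext h))
  by_cases h5 : 5 ∣ Nat.card ↥H
  · obtain ⟨a, ha⟩ := exists_prime_orderOf_dvd_card' (G := ↥H) 5 h5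
    set σ := ρ a with hσ
    have hσo : orderOf σ = 5 := by rw [hσ, orderOf_injective ρ hρ, ha]
    obtain ⟨x, hx⟩ : ∃ x, σ x ≠ x := by
      by_contra hno
      push Not at hno
      rw [show σ = 1 from Equiv.ext hno, orderOf_one] at hσo
      exact absurd hσo (by norm_num)
    set R := ρ.range with hR
    let eR : ↥H ≃* ↥R := MonoidHom.ofInjective hρ
    have hRA : R ≤ alternatingGroup (Fin 8) := by
      rintro _ ⟨h, rfl⟩; exact (equivAlt8 (h : GL (Fin 4) (ZMod 2))).2
    set O := MulAction.orbit ↥R x with hO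
    have hOinv : ∀ h, ∀ y, ρ h y ∈ O ↔ y ∈ O := by
      intro h y
      have hmem : (⟨ρ h, ⟨h, rfl⟩⟩ : ↥R) • y = ρ h y := rfl
      rw [← hmem, hO, ← MulAction.orbit_eq_iff, ← MulAction.orbit_eq_iff]
      rw [MulAction.orbit_smul]
    have hcyc : σ.IsCycle := Equiv.Perm.isCycle_of_prime_order' (by rw [hσo]; norm_num) (by rw [hσo]; simp)
    have hO5 : 5 ≤ O.ncard := by
      have hsub : (σ.support : Set (Fin 8)) ⊆ O := by
        intro y hy
        obtain ⟨i, rfl⟩ := hcyc.exists_pow_eq hx (Equiv.Perm.mem_support.mp hy)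
        exact ⟨⟨σ ^ i, pow_mem (show σ ∈ R from ⟨a, rfl⟩) i⟩, rfl⟩
      have := Set.ncard_le_ncard hsub (Set.toFinite _)
      rwa [Set.ncard_coe_finset, ← hcyc.orderOf, hσo] at this
    have hO8 : O.ncard ≤ 8 := by
      have := Set.ncard_le_ncard (Set.subset_univ O) (Set.toFinite _)
      rwa [Set.ncard_univ, Nat.card_fin] at this
    by_cases h6 : O.ncard ≤ 6
    · rcases small_orbit hss hns ρ hρ O hOinv hO5 h6 with h | h | h | h
      · exact Or.inl ⟨5, le_rfl, by norm_num, h⟩
      · exact Or.inl ⟨6, by norm_num, by norm_num, h⟩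
      · exact Or.inr (Or.inl h)
      · exact Or.inr (Or.inr (Or.inl h))
    have hcardR : Nat.card ↥R = Nat.card ↥H := (Nat.card_congr eR.toEquiv).symm
    by_cases h7 : O.ncard = 7
    · obtain ⟨k, hk⟩ : ∃ k, k ∉ O := by
        by_contra hno
        push Not at hno
        rw [show O = Set.univ from Set.eq_univ_of_forall hno, Set.ncard_univ, Nat.card_fin] at h7
        exact absurd h7 (by norm_num)
      have hOc : O = Set.univ \ {k} := by
        refine Set.eq_of_subset_of_ncard_le (fun y hy => ⟨Set.mem_univ _, fun h => hk (h ▸ hy)⟩) ?_ (Set.toFinite _)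
        rw [h7, Set.ncard_sdiff_singleton_of_mem (Set.mem_univ k), Set.ncard_univ, Nat.card_fin]
      have hfix : ∀ g ∈ R, g k = k := by
        rintro _ ⟨h, rfl⟩
        by_contra hne
        have : ρ h k ∈ O := by rw [hOc]; exact ⟨Set.mem_univ _, hne⟩
        exact hk ((hOinv h k).mp this)
      have h35 : 35 ∣ Nat.card ↥R := by
        have h7d : 7 ∣ Nat.card ↥R := by
          rw [← h7, ← Nat.card_coe_set_eq, hO,
            ← Nat.card_congr (MulAction.orbitEquivQuotientStabilizer ↥R x).symm]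
          exact Subgroup.index_dvd_card _
        exact (show Nat.Coprime 5 7 by norm_num).mul_dvd_of_dvd_of_dvd (hcardR ▸ h5) h7d
      obtain ⟨e⟩ := card_of_fixed_of_dvd R hRA k hfix h35
      exact Or.inl ⟨7, by norm_num, by norm_num, ⟨eR.trans e⟩⟩
    · have h8 : O.ncard = 8 := by omega
      have huniv : O = Set.univ := Set.eq_of_subset_of_ncard_le (Set.subset_univ _)
        (by rw [h8, Set.ncard_univ, Nat.card_fin]) (Set.toFinite _)
      have htrans : MulAction.orbit ↥R (0 : Fin 8) = Set.univ := by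
        rw [← huniv, hO, MulAction.orbit_eq_iff, ← hO, huniv]; trivial
      have hR8 := eq_alternating_of_transitive R hRA htrans (hcardR ▸ h5)
      exact Or.inl ⟨8, by norm_num, le_rfl, ⟨eR.trans (MulEquiv.subgroupCongr hR8)⟩⟩
  · have h7 : 7 ∣ Nat.card ↥H := by
      by_contra h7
      refine hns (CfsgLib.SmallPerm.isSolvable_of_two_primes _ 2 3 6 2 Nat.prime_two (by norm_num) ?_)
      have hc : (Nat.card ↥H).Coprime 35 :=
        Nat.Coprime.mul_right (k := Nat.card ↥H) (m := 5) (n := 7)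
          ((Nat.Prime.coprime_iff_not_dvd (by norm_num)).mpr h5).symm
          ((Nat.Prime.coprime_iff_not_dvd (by norm_num)).mpr h7).symm
      exact hc.dvd_of_dvd_mul_left (hdvd.trans (by norm_num))
    let eV : GL (Fin 4) (ZMod 2) ≃* (V4 ≃ₗ[ZMod 2] V4) :=
      (Matrix.GeneralLinearGroup.toLin : GL (Fin 4) (ZMod 2) ≃* _).trans
        (LinearMap.GeneralLinearGroup.generalLinearEquiv (ZMod 2) V4)
    let L : ↥H →* (V4 ≃ₗ[ZMod 2] V4) := eV.toMonoidHom.comp H.subtype
    have hL : Function.Injective L := fun a b h => Subtype.ext (eV.injective h)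
    obtain ⟨U, hU, hdim⟩ := exists_invariant L hL h7 h5
    exact Or.inr (Or.inr (Or.inr (equiv_GL_three_of_invariant hss h7 L hL U hU hdim)))

end CfsgLib.GL4F2
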